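import Cfsg.Agent.H183.KW.SpFour
import Cfsg.Agent.H838.KW.Cent
import Cfsg.Agent.H343.Blk
import Cfsg.Agent.LieClassical.SympCenter

/-!
# `NoP 5 3 (PSp_2m(3))` (helper183, task K5 of S4243)

* `emb` : `Sp_4(F) ≀ S_k → Sp_4k(F)`;
* `not_dvd_index` : for `|F| = 3` the index is prime to 5;
* `noP_psp3`.
-/

set_option autoImplicit false

open Subgroup

namespace Cfsg.Agent.H183.KW

open Matrix
open Cfsg Cfsg.Agent
open Cfsg.Agent.H838.KW Cfsg.Agent.H146.KW

section Emb

variable {F : Type} [Field F] {k : ℕ}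

/-- the index set -/
abbrev N (k : ℕ) : Type := (Fin 2 ⊕ Fin 2) × Fin k

/-- the form on `N k` -/
def JN (k : ℕ) (F : Type) [Field F] : Matrix (N k) (N k) F := blockDiagonal fun _ : Fin k => J (Fin 2) F

/-- the indices -/
def ie (k : ℕ) : Fin (2 * k) ⊕ Fin (2 * k) ≃ N k :=
  (Equiv.sumCongr finProdFinEquiv.symm finProdFinEquiv.symm).trans (Equiv.sumProdDistrib _ _ _).symm

theorem JN_apply (x y : N k) : JN k F x y = if x.2 = y.2 then J (Fin 2) F x.1 y.1 else 0 := by
  unfold JN
  rw [blockDiagonal_apply]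

theorem one_aux (a b : Fin (2 * k)) : (if (finProdFinEquiv.symm a).2 = (finProdFinEquiv.symm b).2 then
      (1 : Matrix (Fin 2) (Fin 2) F) (finProdFinEquiv.symm a).1 (finProdFinEquiv.symm b).1 else 0) =
      (1 : Matrix (Fin (2 * k)) (Fin (2 * k)) F) a b := by
  rw [Matrix.one_apply, Matrix.one_apply]
  by_cases h : a = b
  · rw [h, if_pos rfl, if_pos rfl, if_pos rfl]
  · rw [if_neg h]
    by_cases h2 : (finProdFinEquiv.symm a).2 = (finProdFinEquiv.symm b).2
    · rw [if_pos h2, if_neg]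
      intro h1
      exact h (finProdFinEquiv.symm.injective (Prod.ext h1 h2))
    · rw [if_neg h2]

theorem J_eq : J (Fin (2 * k)) F = (JN k F).submatrix (ie k) (ie k) := by
  ext x y
  rw [submatrix_apply, JN_apply]
  rcases x with a | a <;> rcases y with b | b
  · change (0 : F) = if (finProdFinEquiv.symm a).2 = (finProdFinEquiv.symm b).2 then (0 : F) else 0
    rw [ite_self]
  · change (-1 : Matrix (Fin (2 * k)) (Fin (2 * k)) F) a b =
      if (finProdFinEquiv.symm a).2 = (finProdFinEquiv.symm b).2 then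
      (-1 : Matrix (Fin 2) (Fin 2) F) (finProdFinEquiv.symm a).1 (finProdFinEquiv.symm b).1 else 0
    rw [Matrix.neg_apply, Matrix.neg_apply, ← one_aux (k := k) a b]
    split_ifs
    · rfl
    · rw [neg_zero]
  · exact (one_aux (k := k) a b).symm
  · change (0 : F) = if (finProdFinEquiv.symm a).2 = (finProdFinEquiv.symm b).2 then (0 : F) else 0
    rw [ite_self]

theorem mem_of {A : Matrix (N k) (N k) F} (h : A * JN k F * Aᵀ = JN k F) :
    A.submatrix (ie k) (ie k) ∈ symplecticGroup (Fin (2 * k)) F := by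
  rw [SymplecticGroup.mem_iff, J_eq, transpose_submatrix, submatrix_mul_equiv, submatrix_mul_equiv, h]

/-- the base group -/
def f1 (k : ℕ) (F : Type) [Field F] :
    (Fin k → symplecticGroup (Fin 2) F) →* symplecticGroup (Fin (2 * k)) F where
  toFun d := ⟨(blockDiagonal fun i => (d i : Matrix (Fin 2 ⊕ Fin 2) (Fin 2 ⊕ Fin 2) F)).submatrix (ie k) (ie k),
    mem_of (by
      unfold JN
      rw [blockDiagonal_transpose, ← blockDiagonal_mul, ← blockDiagonal_mul]
      congr 1
      funext i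
      exact SymplecticGroup.mem_iff.1 (d i).2)⟩
  map_one' := by
    apply Subtype.ext
    change (blockDiagonal fun i => (1 : Matrix (Fin 2 ⊕ Fin 2) (Fin 2 ⊕ Fin 2) F)).submatrix (ie k) (ie k) = 1
    have h1 := blockDiagonal_one (m := Fin 2 ⊕ Fin 2) (o := Fin k) (α := F)
    have h2 : (blockDiagonal fun _ : Fin k => (1 : Matrix (Fin 2 ⊕ Fin 2) (Fin 2 ⊕ Fin 2) F)) = 1 := h1
    rw [h2, submatrix_one_equiv]
  map_mul' a b := by
    apply Subtype.ext
    change (blockDiagonal fun i => ((a i : Matrix (Fin 2 ⊕ Fin 2) (Fin 2 ⊕ Fin 2) F) *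
      (b i : Matrix (Fin 2 ⊕ Fin 2) (Fin 2 ⊕ Fin 2) F))).submatrix (ie k) (ie k) = _ * _
    rw [blockDiagonal_mul, ← submatrix_mul_equiv _ _ _ (ie k)]

/-- the permutation of the indices -/
def pn (k : ℕ) (σ : Equiv.Perm (Fin k)) : N k ≃ N k := (Equiv.refl _).prodCongr σ

/-- the permutation matrix -/
def PM (F : Type) [Field F] (σ : Equiv.Perm (Fin k)) : Matrix (N k) (N k) F :=
  (1 : Matrix (N k) (N k) F).submatrix (pn k σ⁻¹) id

theorem PM_mul (σ : Equiv.Perm (Fin k)) (A : Matrix (N k) (N k) F) : PM F σ * A = A.submatrix (pn k σ⁻¹) id := by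
  have := one_submatrix_mul (α := F) (pn k σ⁻¹) (Equiv.refl (N k)) A
  exact this

theorem mul_PM (σ : Equiv.Perm (Fin k)) (A : Matrix (N k) (N k) F) : A * PM F σ = A.submatrix id (pn k σ) := by
  have := mul_submatrix_one (α := F) (pn k σ⁻¹) (id : N k → N k) A
  exact this

theorem PM_transpose (σ : Equiv.Perm (Fin k)) : (PM F σ)ᵀ = PM F σ⁻¹ := by
  ext x y
  change (1 : Matrix (N k) (N k) F) (pn k σ⁻¹ y) x = (1 : Matrix (N k) (N k) F) (pn k σ⁻¹⁻¹ x) y
  rw [Matrix.one_apply, Matrix.one_apply]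
  have h : pn k σ⁻¹ y = x ↔ pn k σ⁻¹⁻¹ x = y := by
    rw [inv_inv]
    constructor
    · intro h
      rw [← h]
      exact (pn k σ).apply_symm_apply y
    · intro h
      rw [← h]
      exact (pn k σ).symm_apply_apply x
  by_cases h1 : pn k σ⁻¹ y = x
  · rw [if_pos h1, if_pos (h.1 h1)]
  · rw [if_neg h1, if_neg (fun h2 => h1 (h.2 h2))]

theorem PM_conj (σ : Equiv.Perm (Fin k)) (d : Fin k → Matrix (Fin 2 ⊕ Fin 2) (Fin 2 ⊕ Fin 2) F) :
    PM F σ * blockDiagonal d * PM F σ⁻¹ = blockDiagonal fun i => d (σ⁻¹ i) := by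
  rw [PM_mul, mul_PM]
  ext ⟨a, i⟩ ⟨b, j⟩
  change blockDiagonal d (a, σ⁻¹ i) (b, σ⁻¹ j) = blockDiagonal _ (a, i) (b, j)
  rw [blockDiagonal_apply, blockDiagonal_apply]
  by_cases h : i = j
  · rw [if_pos h, if_pos (congrArg _ h)]
  · rw [if_neg h, if_neg (fun h1 => h ((σ⁻¹).injective h1))]

/-- the top group -/
def f2 (k : ℕ) (F : Type) [Field F] : Equiv.Perm (Fin k) →* symplecticGroup (Fin (2 * k)) F where
  toFun σ := ⟨(PM F σ).submatrix (ie k) (ie k), mem_of (by
    rw [PM_transpose]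
    unfold JN
    rw [PM_conj])⟩
  map_one' := by
    apply Subtype.ext
    change (PM F 1).submatrix (ie k) (ie k) = 1
    have h1 : PM F (1 : Equiv.Perm (Fin k)) = 1 := by
      have h2 := PM_mul (F := F) (1 : Equiv.Perm (Fin k)) 1
      rw [mul_one] at h2
      rw [h2]
      ext ⟨a, i⟩ y
      rfl
    rw [h1, submatrix_one_equiv]
  map_mul' σ τ := by
    apply Subtype.ext
    change (PM F (σ * τ)).submatrix (ie k) (ie k) = (PM F σ).submatrix (ie k) (ie k) * (PM F τ).submatrix (ie k) (ie k)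
    rw [submatrix_mul_equiv, PM_mul]
    congr 1

/-- **the embedding** -/
def emb (k : ℕ) (F : Type) [Field F] : Wr (Fin k) (symplecticGroup (Fin 2) F) →* symplecticGroup (Fin (2 * k)) F :=
  SemidirectProduct.lift (f1 k F) (f2 k F) (by
    intro σ
    ext1 d
    apply Subtype.ext
    change (blockDiagonal fun i => (d (σ⁻¹ i) : Matrix (Fin 2 ⊕ Fin 2) (Fin 2 ⊕ Fin 2) F)).submatrix (ie k) (ie k) =
      ((f2 k F σ * f1 k F d * (f2 k F σ)⁻¹ : symplecticGroup (Fin (2 * k)) F) :
        Matrix (Fin (2 * k) ⊕ Fin (2 * k)) (Fin (2 * k) ⊕ Fin (2 * k)) F)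
    rw [← map_inv]
    change _ = (PM F σ).submatrix (ie k) (ie k) * (blockDiagonal fun i => (d i : Matrix _ _ F)).submatrix (ie k) (ie k) *
      (PM F σ⁻¹).submatrix (ie k) (ie k)
    rw [submatrix_mul_equiv, submatrix_mul_equiv, PM_conj])

theorem f1_injective : Function.Injective (f1 k F) := by
  intro a b h
  have h1 : (blockDiagonal fun i => (a i : Matrix (Fin 2 ⊕ Fin 2) (Fin 2 ⊕ Fin 2) F)).submatrix (ie k) (ie k) =
      (blockDiagonal fun i => (b i : Matrix (Fin 2 ⊕ Fin 2) (Fin 2 ⊕ Fin 2) F)).submatrix (ie k) (ie k) :=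
    congrArg Subtype.val h
  have h2 : (blockDiagonal fun i => (a i : Matrix (Fin 2 ⊕ Fin 2) (Fin 2 ⊕ Fin 2) F)) =
      blockDiagonal fun i => (b i : Matrix (Fin 2 ⊕ Fin 2) (Fin 2 ⊕ Fin 2) F) := by
    have h3 := congrArg (fun A : Matrix _ _ F => A.submatrix (ie k).symm (ie k).symm) h1
    simpa [submatrix_submatrix] using h3
  funext i
  exact Subtype.ext (congrFun (blockDiagonal_injective h2) i)

theorem emb_injective : Function.Injective (emb k F) := by
  rw [injective_iff_map_eq_one]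
  intro w hw
  have h1 : f1 k F w.left * f2 k F w.right = 1 := hw
  have h2 : f2 k F w.right = f1 k F (w.left)⁻¹ := by
    rw [map_inv]
    exact eq_inv_of_mul_eq_one_right h1
  have h3 : PM F w.right = blockDiagonal fun i => (((w.left)⁻¹ i : symplecticGroup (Fin 2) F) : Matrix _ _ F) := by
    have h4 : (PM F w.right).submatrix (ie k) (ie k) =
        (blockDiagonal fun i => (((w.left)⁻¹ i : symplecticGroup (Fin 2) F) : Matrix _ _ F)).submatrix (ie k) (ie k) :=
      congrArg Subtype.val h2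
    have h5 := congrArg (fun A : Matrix _ _ F => A.submatrix (ie k).symm (ie k).symm) h4
    simpa [submatrix_submatrix] using h5
  have h4 : w.right = 1 := by
    ext j
    rw [Equiv.Perm.one_apply]
    by_contra hj
    have hj' : w.right j ≠ j := fun h => hj (by rw [h])
    have h5 := congrFun (congrFun h3 (Sum.inl 0, w.right j)) (Sum.inl 0, j)
    rw [blockDiagonal_apply, if_neg hj'] at h5
    have h6 : PM F w.right (Sum.inl 0, w.right j) (Sum.inl 0, j) = 1 := by
      change (1 : Matrix (N k) (N k) F) (Sum.inl 0, w.right⁻¹ (w.right j)) (Sum.inl 0, j) = 1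
      have h7 : w.right⁻¹ (w.right j) = j := w.right.symm_apply_apply j
      rw [h7, Matrix.one_apply_eq]
    rw [h6] at h5
    exact one_ne_zero h5
  rw [h4, map_one, mul_one] at h1
  have h5 : w.left = 1 := f1_injective (h1.trans (map_one _).symm)
  exact SemidirectProduct.ext h5 h4

end Emb

/-! ### the index -/

theorem fact_five : Fact (Nat.Prime 5) := ⟨Nat.prime_five⟩

theorem val_81 (k : ℕ) : padicValNat 5 (81 ^ (k + 1) - 1) = 1 + padicValNat 5 (k + 1) := by
  have := fact_five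
  have h := padicValNat.pow_sub_pow (p := 5) (x := 81) (y := 1) (by decide) (by norm_num) (by norm_num) (by norm_num)
    (n := k + 1) (Nat.succ_ne_zero k)
  rw [one_pow] at h
  rw [h]
  congr 1
  rw [show (81 - 1 : ℕ) = 5 * 16 by norm_num, padicValNat.mul (by norm_num) (by norm_num), padicValNat.self (by norm_num),
    padicValNat.eq_zero_of_not_dvd (by norm_num)]

theorem not_dvd_odd (k : ℕ) : ¬ 5 ∣ 9 ^ (2 * k + 1) - 1 := by
  intro h
  have h1 : 9 ^ (2 * k + 1) % 5 = 4 := by
    rw [pow_succ, pow_mul, Nat.mul_mod, Nat.pow_mod]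
    norm_num
  have h2 : 1 ≤ 9 ^ (2 * k + 1) := Nat.one_le_pow _ _ (by norm_num)
  omega

/-- the order of `Sp_2m(3)` -/
def ord (m : ℕ) : ℕ := 3 ^ (m ^ 2) * ∏ i ∈ Finset.range m, (3 ^ (2 * (i + 1)) - 1)

theorem ord_succ (m : ℕ) : ord (m + 1) = ord m * (3 ^ (2 * m + 1) * (9 ^ (m + 1) - 1)) := by
  unfold ord
  rw [Finset.prod_range_succ, pow_mul 3 2 (m + 1), show (3 : ℕ) ^ 2 = 9 by norm_num,
    show (m + 1) ^ 2 = m ^ 2 + (2 * m + 1) by ring, pow_add]
  ring

theorem ord_ne (m : ℕ) : ord m ≠ 0 := by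
  unfold ord
  refine mul_ne_zero (by positivity) (Finset.prod_ne_zero_iff.2 fun i _ => ?_)
  have : 1 < 3 ^ (2 * (i + 1)) := Nat.one_lt_pow (by omega) (by norm_num)
  omega

theorem val_ord_succ (m : ℕ) : padicValNat 5 (ord (m + 1)) = padicValNat 5 (ord m) + padicValNat 5 (9 ^ (m + 1) - 1) := by
  have := fact_five
  have h9 : (9 : ℕ) ^ (m + 1) - 1 ≠ 0 := by
    have : 1 < 9 ^ (m + 1) := Nat.one_lt_pow (by omega) (by norm_num)
    omega
  rw [ord_succ, padicValNat.mul (ord_ne m) (mul_ne_zero (by positivity) h9), padicValNat.mul (by positivity) h9]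
  have h3 : padicValNat 5 (3 ^ (2 * m + 1)) = 0 := by
    apply padicValNat.eq_zero_of_not_dvd
    intro h
    have := Nat.prime_five.dvd_of_dvd_pow h
    norm_num at this
  rw [h3, zero_add]

theorem val_ord (k : ℕ) : padicValNat 5 (ord (2 * k)) = padicValNat 5 (51840 ^ k * k.factorial) := by
  have := fact_five
  induction k with
  | zero => simp [ord]
  | succ k ih =>
    rw [show 2 * (k + 1) = 2 * k + 1 + 1 by ring, val_ord_succ, val_ord_succ, ih,
      padicValNat.eq_zero_of_not_dvd (not_dvd_odd k), show 2 * k + 1 + 1 = 2 * (k + 1) by ring, pow_mul 9 2 (k + 1),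
      show (9 : ℕ) ^ 2 = 81 by norm_num, val_81, pow_succ, Nat.factorial_succ]
    have h0 : (51840 : ℕ) ^ k * k.factorial ≠ 0 := mul_ne_zero (by positivity) (Nat.factorial_ne_zero k)
    rw [show 51840 ^ k * 51840 * ((k + 1) * k.factorial) = (51840 ^ k * k.factorial) * (51840 * (k + 1)) by ring,
      padicValNat.mul h0 (by positivity), padicValNat.mul (by norm_num) (Nat.succ_ne_zero k)]
    have h1 : padicValNat 5 51840 = 1 := by
      rw [show (51840 : ℕ) = 5 * 10368 by norm_num, padicValNat.mul (by norm_num) (by norm_num),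
        padicValNat.self (by norm_num), padicValNat.eq_zero_of_not_dvd (by norm_num)]
    rw [h1]
    ring

section Main

variable {F : Type} [Field F] [Fintype F]

theorem card_sp (hF : Fintype.card F = 3) (m : ℕ) : Nat.card (symplecticGroup (Fin m) F) = ord m := by
  rw [LieClassical.SympCount.card_symplecticGroup, hF]
  rfl

theorem not_dvd_of_val {a b i : ℕ} (ha : a ≠ 0) (h : a * i = b) (hb : b ≠ 0) (hv : padicValNat 5 b = padicValNat 5 a) :
    ¬ 5 ∣ i := by
  have := fact_five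
  intro hi
  have hi0 : i ≠ 0 := by
    rintro rfl
    rw [mul_zero] at h
    exact hb h.symm
  rw [← h, padicValNat.mul ha hi0] at hv
  have := one_le_padicValNat_of_dvd hi0 hi
  omega

theorem noP_even (hF : Fintype.card F = 3) (k : ℕ) [Fact (Nat.Prime 5)] :
    NoP 5 3 (symplecticGroup (Fin (2 * k)) F) := by
  refine noP_of_hom (emb k F) emb_injective ?_
    (noP_wr (Fin k) (noP_sp_four hF) (three_dvd_sylow hF))
  have h1 : Nat.card (emb k F).range = 51840 ^ k * k.factorial := by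
    rw [← Nat.card_congr (MonoidHom.ofInjective emb_injective).toEquiv, card_wr, Nat.card_pi, Nat.card_perm,
      Nat.card_fin, Finset.prod_const, Finset.card_univ, Fintype.card_fin, card_sp_four hF]
  have h2 := (emb k F).range.card_mul_index
  rw [h1, card_sp hF] at h2
  exact not_dvd_of_val (mul_ne_zero (by positivity) (Nat.factorial_ne_zero k)) h2 (ord_ne _) (val_ord k)

theorem noP_odd (hF : Fintype.card F = 3) (k : ℕ) [Fact (Nat.Prime 5)] :
    NoP 5 3 (symplecticGroup (Fin (2 * k + 1)) F) := by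
  refine noP_of_hom (H343.Blk.spExt (F := F) (Fin.castSucc : Fin (2 * k) → Fin (2 * k + 1))
    (Fin.castSucc_injective _)) (H343.Blk.spExt_injective _ _) ?_ (noP_even hF k)
  have h1 : Nat.card (H343.Blk.spExt (F := F) (Fin.castSucc : Fin (2 * k) → Fin (2 * k + 1))
    (Fin.castSucc_injective _)).range = ord (2 * k) := by
    rw [← Nat.card_congr (MonoidHom.ofInjective (H343.Blk.spExt_injective _ _)).toEquiv, card_sp hF]
  have h2 := (H343.Blk.spExt (F := F) (Fin.castSucc : Fin (2 * k) → Fin (2 * k + 1))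
    (Fin.castSucc_injective _)).range.card_mul_index
  rw [h1, card_sp hF] at h2
  refine not_dvd_of_val (ord_ne _) h2 (ord_ne _) ?_
  rw [val_ord_succ, padicValNat.eq_zero_of_not_dvd (not_dvd_odd k), add_zero]

theorem noP_sp (hF : Fintype.card F = 3) (m : ℕ) [Fact (Nat.Prime 5)] : NoP 5 3 (symplecticGroup (Fin m) F) := by
  rcases Nat.even_or_odd' m with ⟨k, rfl | rfl⟩
  · exact noP_even hF k
  · exact noP_odd hF k

/-- **`NoP 5 3` for `PSp_2m(3)`** -/
theorem noP_psp3 [CharP F 3] (hq : Fintype.card F = 3) {m : ℕ} (hm : 2 ≤ m) : NoP 5 3 (PSp m F) := by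
  have := fact_five
  have h3 : Fact (Nat.Prime 3) := ⟨Nat.prime_three⟩
  refine noP_of_central (Z := center (symplecticGroup (Fin m) F)) ?_ fun H hH hr x hx hxp => ?_
  · rw [LieClassical.SympCenter.card_center (by omega), hq]
    norm_num
  · obtain ⟨k, hk⟩ := hxp
    have h1 := noP_sp hq m H hH hr
    have h2 : (⟨x, hx⟩ : H) ^ 5 ^ k = 1 := Subtype.ext hk
    have h4 : x = 1 := congrArg Subtype.val (eq_one_of_pow h1 h2)
    rw [h4]
    exact one_mem _

end Main

end Cfsg.Agent.H183.KW
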