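import Cfsg.Agent.H838.KW.CrossDef
import Mathlib.GroupTheory.SemidirectProduct

/-!
# `NoP` for wreath products (helper183, for S4243)

* `noP_of_index` : a subgroup `N` of index prime to `p` with `NoP p r N`;
* `noP_of_hom` : the same for an injective homomorphism;
* `noP_of_prime` : Sylow `p`-subgroups of order `p` whose number is divisible by `r`;
* `Wr k D` : `D ≀ S_k`;  `noP_wr` : **`NoP p r D` and `r ∣ |Syl_p(D)|` imply `NoP p r (D ≀ S_k)`**.
-/

set_option autoImplicit false

open Subgroup

namespace Cfsg.Agent.H183.KW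

open Cfsg.Agent.H838.KW Cfsg.Agent.H146.KW

universe u v

section

variable {p r : ℕ} [hp : Fact p.Prime]

/-- a `p`-element in a group of order prime to `p` -/
theorem eq_one_of_pow {G : Type*} [Group G] [Finite G] (h : ¬ p ∣ Nat.card G) {x : G} {k : ℕ} (hx : x ^ p ^ k = 1) :
    x = 1 := by
  rw [← orderOf_eq_one_iff]
  refine Nat.eq_one_of_dvd_coprimes ?_ (orderOf_dvd_of_pow_eq_one hx) (orderOf_dvd_natCard x)
  exact Nat.Coprime.pow_left _ ((Nat.Prime.coprime_iff_not_dvd hp.1).2 h)

/-- to show `¬ p ∣ |H|` it is enough that `P ∩ H = 1` -/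
theorem not_dvd_of_inf {G : Type*} [Group G] [Finite G] {H : Subgroup G} (h : PSub p H) (P : Sylow p G)
    (hP : ∀ x ∈ P, x ∈ H → x = 1) : ¬ p ∣ Nat.card H := by
  intro hd
  have h1 := h.dvd_card_inf hd P
  have h2 : H ⊓ (P : Subgroup G) = ⊥ := by
    rw [eq_bot_iff]
    rintro x ⟨hx, hx'⟩
    exact mem_bot.2 (hP x hx' hx)
  rw [h2, Subgroup.card_bot] at h1
  exact hp.1.one_lt.ne' (Nat.dvd_one.1 h1)

theorem noP_of_index {G : Type u} [Group G] [Finite G] (N : Subgroup G) (hN : ¬ p ∣ N.index) (h : NoP p r N) :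
    NoP p r G := by
  intro H hH hr hd
  have h1 := hH.inf_of_not_dvd_index hN
  have h2 : ¬ r ∣ Nat.card ((H ⊓ N).subgroupOf N) := by
    intro h3
    apply hr
    rw [Nat.card_congr (subgroupOfEquivOfLe (inf_le_right : H ⊓ N ≤ N)).toEquiv] at h3
    exact h3.trans (card_dvd_of_le inf_le_left)
  have h3 := h _ h1 h2
  rw [Nat.card_congr (subgroupOfEquivOfLe (inf_le_right : H ⊓ N ≤ N)).toEquiv] at h3
  -- a Sylow subgroup of `G` in `N`
  obtain ⟨P0⟩ : Nonempty (Sylow p N) := inferInstance
  have hQ : IsPGroup p ((P0 : Subgroup N).map N.subtype) := P0.isPGroup'.map _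
  have hQi : ¬ p ∣ ((P0 : Subgroup N).map N.subtype).index := by
    rw [index_map_subtype]
    intro h4
    rcases (Nat.Prime.dvd_mul hp.1).1 h4 with h5 | h5
    · exact P0.not_dvd_index h5
    · exact hN h5
  refine (not_dvd_of_inf hH (hQ.toSylow hQi) fun x hx hxH => ?_) hd
  have hx' : x ∈ (P0 : Subgroup N).map N.subtype := hx
  have hxN : x ∈ N := by
    obtain ⟨y, -, rfl⟩ := hx'
    exact y.2
  obtain ⟨k, hk⟩ := hQ ⟨x, hx'⟩
  have hk' : x ^ p ^ k = 1 := congrArg Subtype.val hk
  have h4 : (⟨x, ⟨hxH, hxN⟩⟩ : ↥(H ⊓ N)) ^ p ^ k = 1 := Subtype.ext hk'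
  exact congrArg Subtype.val (eq_one_of_pow h3 h4)

theorem noP_of_hom {G : Type u} [Group G] [Finite G] {N : Type u} [Group N] [Finite N] (f : N →* G)
    (hf : Function.Injective f) (hN : ¬ p ∣ f.range.index) (h : NoP p r N) : NoP p r G :=
  noP_of_index f.range hN (h.of_equiv (MonoidHom.ofInjective hf).symm)

/-- Sylow `p`-subgroups of order `p` -/
theorem noP_of_prime {G : Type u} [Group G] [Finite G] (P : Sylow p G) (hP : Nat.card P = p)
    (hr : r ∣ Nat.card (Sylow p G)) : NoP p r G := by
  intro H hH hrH hd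
  apply hrH
  refine hr.trans ?_
  -- all Sylow subgroups lie in `H`
  have hcard : ∀ Q : Sylow p G, Nat.card Q = p := fun Q => (Nat.card_congr (Sylow.equiv Q P).toEquiv).trans hP
  have hle : ∀ Q : Sylow p G, (Q : Subgroup G) ≤ H := by
    intro Q
    have h1 := hH.dvd_card_inf hd Q
    have h2 : H ⊓ (Q : Subgroup G) = Q := by
      refine eq_of_le_of_card_ge inf_le_right ?_
      have h3 := Nat.le_of_dvd Nat.card_pos h1
      have h4 : Nat.card ((Q : Subgroup G)) = p := hcard Q
      rw [h4]
      exact h3
    rw [← h2]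
    exact inf_le_left
  -- so the Sylow subgroups of `G` are the orbit of one of them under `H`
  have h1 : ∀ Q : Sylow p G, Nat.card (Sylow p H) = Nat.card (Sylow p G) := by
    intro Q
    refine Nat.card_congr
      { toFun := fun S => ?_
        invFun := fun Q => Q.subtype (hle Q)
        left_inv := fun S => ?_
        right_inv := fun Q => ?_ }
    · refine IsPGroup.toSylow (P := (S : Subgroup H).map H.subtype) (S.isPGroup'.map _) ?_
      rw [index_map_subtype]
      intro h4
      rcases (Nat.Prime.dvd_mul hp.1).1 h4 with h5 | h5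
      · exact S.not_dvd_index h5
      · exact P.not_dvd_index (h5.trans (index_dvd_of_le (hle P)))
    · apply Sylow.ext
      ext x
      change (x : G) ∈ (S : Subgroup H).map H.subtype ↔ _
      constructor
      · rintro ⟨y, hy, hyx⟩
        have : y = x := Subtype.ext hyx
        rw [← this]
        exact hy
      · intro hx
        exact ⟨x, hx, rfl⟩
    · apply Sylow.ext
      ext x
      change x ∈ ((Q : Subgroup G).subgroupOf H).map H.subtype ↔ _
      constructor
      · rintro ⟨y, hy, rfl⟩
        exact hy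
      · intro hx
        exact ⟨⟨x, hle Q hx⟩, hx, rfl⟩
  rw [← h1 P]
  obtain ⟨S⟩ : Nonempty (Sylow p H) := inferInstance
  rw [S.card_eq_index_normalizer]
  exact index_dvd_card _

end

/-! ### the wreath product -/

/-- permutation of the factors -/
def permAut (ι : Type v) (D : Type u) [Group D] : Equiv.Perm ι →* MulAut (ι → D) where
  toFun σ :=
    { toFun := fun d i => d (σ⁻¹ i)
      invFun := fun d i => d (σ i)
      left_inv := fun d => by funext i; simp
      right_inv := fun d => by funext i; simp
      map_mul' := fun _ _ => rfl }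
  map_one' := by ext d i; simp
  map_mul' σ τ := by ext d i; simp

theorem permAut_apply {ι : Type v} {D : Type u} [Group D] (σ : Equiv.Perm ι) (d : ι → D) (i : ι) :
    permAut ι D σ d i = d (σ⁻¹ i) := rfl

/-- `D ≀ S_ι` -/
abbrev Wr (ι : Type v) (D : Type u) [Group D] := (ι → D) ⋊[permAut ι D] Equiv.Perm ι

section Wr

variable {ι : Type} [Finite ι] {D : Type u} [Group D] [Finite D]

instance finite_wr : Finite (Wr ι D) := Finite.of_equiv _ SemidirectProduct.equivProd.symm

omit [Finite ι] [Finite D] in
theorem card_wr : Nat.card (Wr ι D) = Nat.card (ι → D) * Nat.card (Equiv.Perm ι) := by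
  rw [← Nat.card_prod]
  exact Nat.card_congr SemidirectProduct.equivProd

/-- the action on the blocks -/
instance act_wr : MulAction (Wr ι D) ι := MulAction.compHom ι (SemidirectProduct.rightHom : Wr ι D →* Equiv.Perm ι)

omit [Finite ι] [Finite D] in
theorem smul_wr (g : Wr ι D) (i : ι) : g • i = g.right i := rfl

/-- the blocks -/
def blk (ι : Type) (D : Type u) [Group D] (i : ι) : Subgroup (Wr ι D) where
  carrier := {g | g.right = 1 ∧ ∀ j, j ≠ i → g.left j = 1}
  one_mem' := ⟨rfl, fun _ _ => rfl⟩
  mul_mem' := by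
    rintro a b ⟨ha, ha'⟩ ⟨hb, hb'⟩
    refine ⟨by rw [SemidirectProduct.mul_right, ha, hb, one_mul], fun j hj => ?_⟩
    rw [SemidirectProduct.mul_left, ha, map_one, MulAut.one_apply, Pi.mul_apply, ha' j hj, hb' j hj, one_mul]
  inv_mem' := by
    rintro a ⟨ha, ha'⟩
    refine ⟨by rw [SemidirectProduct.inv_right, ha, inv_one], fun j hj => ?_⟩
    rw [SemidirectProduct.inv_left, ha, inv_one, map_one, MulAut.one_apply, Pi.inv_apply, ha' j hj, inv_one]

omit [Finite ι] [Finite D] in
theorem mem_blk {i : ι} {g : Wr ι D} : g ∈ blk ι D i ↔ g.right = 1 ∧ ∀ j, j ≠ i → g.left j = 1 := Iff.rfl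

open Classical in
/-- the blocks are isomorphic to `D` -/
noncomputable def blkEquiv (ι : Type) (D : Type u) [Group D] (i : ι) : D ≃* blk ι D i where
  toFun d := ⟨SemidirectProduct.inl (Function.update 1 i d), rfl, fun j hj => by
    change Function.update (1 : ι → D) i d j = 1
    rw [Function.update_of_ne hj]
    rfl⟩
  invFun g := (g : Wr ι D).left i
  left_inv d := by
    change Function.update (1 : ι → D) i d i = d
    rw [Function.update_self]
  right_inv g := by
    apply Subtype.ext
    apply SemidirectProduct.ext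
    · funext j
      change Function.update (1 : ι → D) i ((g : Wr ι D).left i) j = (g : Wr ι D).left j
      by_cases hj : j = i
      · rw [hj, Function.update_self]
      · rw [Function.update_of_ne hj, g.2.2 j hj]
        rfl
    · exact g.2.1.symm
  map_mul' a b := by
    apply Subtype.ext
    apply SemidirectProduct.ext
    · funext j
      change Function.update (1 : ι → D) i (a * b) j =
        Function.update (1 : ι → D) i a j * (permAut ι D 1 (Function.update (1 : ι → D) i b)) j
      rw [map_one, MulAut.one_apply]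
      by_cases hj : j = i
      · rw [hj, Function.update_self, Function.update_self, Function.update_self]
      · rw [Function.update_of_ne hj, Function.update_of_ne hj, Function.update_of_ne hj]
        exact (one_mul _).symm
    · rfl

theorem card_sylow_congr {p : ℕ} [Fact p.Prime] {A : Type*} {B : Type*} [Group A] [Group B] [Finite A] [Finite B]
    (e : A ≃* B) : Nat.card (Sylow p A) = Nat.card (Sylow p B) := by
  apply le_antisymm
  · exact Nat.card_le_card_of_surjective _ (Sylow.mapSurjective_surjective (f := e.symm.toMonoidHom) e.symm.surjective p)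
  · exact Nat.card_le_card_of_surjective _ (Sylow.mapSurjective_surjective (f := e.toMonoidHom) e.surjective p)

/-- **`NoP` for `D ≀ S_ι`** -/
theorem noP_wr {p r : ℕ} [hp : Fact p.Prime] (ι : Type) [Finite ι] (hD : NoP p r D) (hr : r ∣ Nat.card (Sylow p D)) :
    NoP p r (Wr ι D) := by
  intro H hH hrH
  obtain ⟨P⟩ : Nonempty (Sylow p (Wr ι D)) := inferInstance
  refine not_dvd_of_inf hH P fun x hxP hxH => ?_
  -- `x` fixes the blocks
  have hfix : ∀ i : ι, x • i = i := by
    intro i
    refine smul_eq_of_block hH hrH (blk ι D) ?_ ?_ ?_ ?_ P hxP hxH i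
    · rintro g i y ⟨hy, hy'⟩
      refine ⟨?_, fun j hj => ?_⟩
      · rw [SemidirectProduct.mul_right, SemidirectProduct.mul_right, SemidirectProduct.inv_right, hy, mul_one,
          mul_inv_cancel]
      · have h1 : y.left (g.right⁻¹ j) = 1 := hy' _ (fun h => hj (by
          rw [smul_wr, ← h]
          exact (g.right.apply_symm_apply j).symm))
        rw [SemidirectProduct.mul_left, SemidirectProduct.mul_left, SemidirectProduct.inv_left,
          SemidirectProduct.mul_right, hy, mul_one]
        rw [← MulAut.mul_apply, ← map_mul, mul_inv_cancel, map_one, MulAut.one_apply]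
        change g.left j * y.left (g.right⁻¹ j) * (g.left j)⁻¹ = 1
        rw [h1, mul_one, mul_inv_cancel]
    · rintro i j hij a ⟨ha, ha'⟩ b ⟨hb, hb'⟩
      apply SemidirectProduct.ext
      · funext l
        rw [SemidirectProduct.mul_left, SemidirectProduct.mul_left, ha, hb, map_one, MulAut.one_apply,
          MulAut.one_apply, Pi.mul_apply, Pi.mul_apply]
        by_cases hl : l = i
        · rw [hb' l (by rw [hl]; exact hij), mul_one, one_mul]
        · rw [ha' l hl, one_mul, mul_one]
      · rw [SemidirectProduct.mul_right, SemidirectProduct.mul_right, ha, hb]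
    · rintro i j a ⟨ha, -⟩
      rw [smul_wr, ha, Equiv.Perm.one_apply]
    · intro i
      rw [← card_sylow_congr (blkEquiv ι D i)]
      exact hr
  have hx1 : x.right = 1 := Equiv.ext fun i => hfix i
  -- the base group
  let B : Subgroup (Wr ι D) := (SemidirectProduct.rightHom : Wr ι D →* Equiv.Perm ι).ker
  have hBn : B.Normal := MonoidHom.normal_ker _
  have hB : PSub p ((H ⊓ B).subgroupOf B) := hH.inf_normal_subgroupOf (N := B)
  obtain ⟨k, hk⟩ := P.isPGroup' ⟨x, hxP⟩
  have hk' : x ^ p ^ k = 1 := congrArg Subtype.val hk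
  have hxB : x ∈ B := hx1
  have hmr : ∀ b : B, (b : Wr ι D).right = 1 := fun b => b.2
  apply SemidirectProduct.ext
  · funext i
    -- the projection
    let f : B →* D :=
      { toFun := fun b => (b : Wr ι D).left i
        map_one' := rfl
        map_mul' := fun a b => by
          change ((a : Wr ι D) * (b : Wr ι D)).left i = _
          rw [SemidirectProduct.mul_left, hmr a, map_one, MulAut.one_apply, Pi.mul_apply] }
    have hf : Function.Surjective f := fun d => ⟨⟨(blkEquiv ι D i d : Wr ι D), (blkEquiv ι D i d).2.1⟩,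
      (blkEquiv ι D i).symm_apply_apply d⟩
    have h1 := hB.map hf
    have h2 : ¬ r ∣ Nat.card (((H ⊓ B).subgroupOf B).map f) := by
      intro h3
      apply hrH
      refine (h3.trans (card_map_dvd _ _)).trans ?_
      rw [Nat.card_congr (subgroupOfEquivOfLe (inf_le_right : H ⊓ B ≤ B)).toEquiv]
      exact card_dvd_of_le inf_le_left
    have h3 := hD _ h1 h2
    have h4 : f ⟨x, hxB⟩ ∈ ((H ⊓ B).subgroupOf B).map f := ⟨⟨x, hxB⟩, ⟨hxH, hxB⟩, rfl⟩
    have h5 : (⟨f ⟨x, hxB⟩, h4⟩ : ((H ⊓ B).subgroupOf B).map f) ^ p ^ k = 1 := by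
      apply Subtype.ext
      change f ⟨x, hxB⟩ ^ p ^ k = 1
      rw [← map_pow]
      have h6 : (⟨x, hxB⟩ : B) ^ p ^ k = 1 := Subtype.ext hk'
      rw [h6, map_one]
    exact congrArg Subtype.val (eq_one_of_pow h3 h5)
  · exact hx1

end Wr

end Cfsg.Agent.H183.KW
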